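import Cfsg.Agent.Lib.SimsThree.Chain
import Mathlib.GroupTheory.IndexNormal

/-!
The chain of intersections of a subgroup meeting a conjugate in a normal subgroup of prime index.
-/

set_option autoImplicit false
set_option linter.unusedSectionVars false

namespace Cfsg.Agent.Lib.GlaubermanIndex

open Subgroup
open Cfsg.Agent.Lib.LocalChar (cj mem_cj cj_cj cj_mono card_cj mem_nz_of_cj_eq cj_eq_of_mem_nz)
open Cfsg.Agent.Lib.SimsThree (T mem_T cj_T T_mono T_inf card_T_shift T_succ_eq T_zero_zero card_mul_relIndex')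

variable {G : Type*} [Group G] [Finite G]

/-- The hypothesis. -/
structure Data (p : ℕ) (P : Subgroup G) (h : G) : Prop where
  prime : p.Prime
  idx : P.relIndex (cj h P) = p
  nor : ((P ⊓ cj h P).subgroupOf (cj h P)).Normal
  nobot : ∀ Q : Subgroup G, Q ≤ P → P ≤ normalizer (Q : Set G) → cj h Q = Q → Q = ⊥

variable {p : ℕ} {P : Subgroup G} {h : G}

lemma T_one_one : T P h 1 1 = cj h P := by
  have := cj_T (X := P) (h := h) 1 0 0
  rw [T_zero_zero, zpow_one] at this
  simpa using this.symm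

lemma Data.step (d : Data p P h) (n : ℕ) :
    T P h 1 (n + 1 : ℕ) ≤ normalizer (T P h 0 (n + 1 : ℕ) : Set G) ∧
      (T P h 0 (n + 1 : ℕ)).relIndex (T P h 1 (n + 1 : ℕ)) ∣ p := by
  have hle : T P h 1 (n + 1 : ℕ) ≤ cj h P := (T_mono le_rfl (by omega)).trans_eq T_one_one
  have e : T P h 0 (n + 1 : ℕ) = (P ⊓ cj h P) ⊓ T P h 1 (n + 1 : ℕ) := by
    rw [inf_assoc, inf_eq_right.2 hle, T_succ_eq]
  have hn : cj h P ≤ normalizer ((P ⊓ cj h P : Subgroup G) : Set G) :=
    (normal_subgroupOf_iff_le_normalizer inf_le_right).1 d.nor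
  constructor
  · rw [e]
    exact le_trans (le_inf (hle.trans hn) le_normalizer) inf_normalizer_le_normalizer_inf
  · rw [e, inf_relIndex_right, ← relIndex_subgroupOf hle]
    haveI := d.nor
    refine (relIndex_dvd_index_of_normal ((P ⊓ cj h P).subgroupOf (cj h P))
      ((T P h 1 (n + 1 : ℕ)).subgroupOf (cj h P))).trans (dvd_of_eq ?_)
    show (P ⊓ cj h P).relIndex (cj h P) = p
    rw [inf_relIndex_right, d.idx]

lemma Data.step_shift (d : Data p P h) (n : ℕ) :
    T P h 0 n ≤ normalizer (T P h (-1) n : Set G) ∧ (T P h (-1) n).relIndex (T P h 0 n) ∣ p := by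
  obtain ⟨h1, h2⟩ := d.step n
  have e1 : cj (h ^ (-1 : ℤ)) (T P h 1 (n + 1 : ℕ)) = T P h 0 n := by
    rw [cj_T]; congr 1 <;> omega
  have e2 : cj (h ^ (-1 : ℤ)) (T P h 0 (n + 1 : ℕ)) = T P h (-1) n := by
    rw [cj_T]; congr 1 <;> omega
  constructor
  · rw [← e1, ← e2]
    exact (map_mono (f := (MulAut.conj (h ^ (-1 : ℤ))).toMonoidHom) h1).trans (le_normalizer_map _)
  · rw [← e1, ← e2]
    have h3 : (T P h 0 (n + 1 : ℕ)) ≤ T P h 1 (n + 1 : ℕ) := T_mono (by omega) le_rfl
    refine dvd_trans (dvd_of_eq ?_) h2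
    refine mul_left_cancel₀ (Nat.card_pos (α := ↥(T P h 0 (n + 1 : ℕ)))).ne' ?_
    rw [card_mul_relIndex' h3]
    conv_lhs => rw [← card_cj (h ^ (-1 : ℤ)) (T P h 0 (n + 1 : ℕ))]
    rw [card_mul_relIndex' (cj_mono h3), card_cj]

lemma Data.card_step (d : Data p P h) (n : ℕ) :
    T P h 0 (n + 1 : ℕ) = T P h 0 n ∨ Nat.card ↥(T P h 0 n) = p * Nat.card ↥(T P h 0 (n + 1 : ℕ)) := by
  obtain ⟨-, h2⟩ := d.step_shift n
  have hle : T P h (-1) n ≤ T P h 0 n := T_mono (by omega) le_rfl
  have hc : Nat.card ↥(T P h (-1) n) = Nat.card ↥(T P h 0 (n + 1 : ℕ)) := by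
    have := card_T_shift (X := P) (h := h) (-1) 0 (n + 1 : ℕ)
    rw [← this, show (0 : ℤ) + -1 = -1 by norm_num, show ((n + 1 : ℕ) : ℤ) + -1 = n by omega]
  have h3 := card_mul_relIndex' hle
  rw [hc] at h3
  rcases (Nat.dvd_prime d.prime).1 h2 with e | e
  · left
    rw [e, mul_one] at h3
    exact eq_of_le_of_card_ge (T_mono le_rfl (by omega)) h3.ge
  · right
    rw [← h3, e, mul_comm]

lemma Data.stable_eq_bot (d : Data p P h) :
    ∀ n : ℕ, T P h 0 (n + 1 : ℕ) = T P h 0 n → T P h 0 n = ⊥ := by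
  classical
  by_contra hc
  push Not at hc
  obtain ⟨n, ⟨hn, hne⟩, hmin⟩ : ∃ n, (T P h 0 (n + 1 : ℕ) = T P h 0 n ∧ T P h 0 n ≠ ⊥) ∧
      ∀ j < n, ¬ (T P h 0 (j + 1 : ℕ) = T P h 0 j ∧ T P h 0 j ≠ ⊥) :=
    ⟨Nat.find hc, Nat.find_spec hc, fun j hj => Nat.find_min hc hj⟩
  set S := T P h 0 n with hS
  have hn1 : 1 ≤ n := by
    by_contra hn0
    obtain rfl : n = 0 := by omega
    have hle : T P h 0 (0 + 1 : ℕ) ≤ cj h P := (T_mono (by simp) (by simp)).trans_eq T_one_one
    rw [hn, hS, Nat.cast_zero, T_zero_zero] at hle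
    have e : cj h P = P := (eq_of_le_of_card_ge hle (card_cj h P).le).symm
    have := d.idx
    rw [e, relIndex_self] at this
    exact d.prime.one_lt.ne this
  have hh : cj h S = S := by
    have h1 : S ≤ cj h S := by
      have := cj_T (X := P) (h := h) 1 0 n
      rw [zpow_one] at this
      rw [hS, this, show T P h 0 (n : ℤ) = T P h 0 (n + 1 : ℕ) from hn.symm]
      exact T_mono (by omega) (by omega)
    exact (eq_of_le_of_card_ge h1 (card_cj h S).le).symm
  have hhn : ∀ i : ℤ, h ^ i ∈ normalizer (S : Set G) := fun i => zpow_mem (mem_nz_of_cj_eq hh) i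
  have hj : ∀ j : ℕ, j < n → T P h 0 ((n - 1 - j : ℕ) : ℤ) ≤ normalizer (S : Set G) := by
    intro j hjn
    induction j with
    | zero =>
      have e : T P h (-1) ((n - 1 : ℕ) : ℤ) = S := by
        conv_rhs => rw [← cj_eq_of_mem_nz (hhn (-1)), hS, cj_T]
        congr 1 <;> omega
      rw [show n - 1 - 0 = n - 1 by omega, ← e]
      exact (d.step_shift (n - 1)).1
    | succ j ih =>
      set i := n - 1 - j with hi
      have hi1 : n - 1 - (j + 1) = i - 1 := by omega
      have hipos : 1 ≤ i := by omega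
      rw [hi1]
      set A := T P h 0 (i : ℤ)
      set B := T P h 0 ((i - 1 : ℕ) : ℤ)
      set A' := cj (h ^ (-1 : ℤ)) A with hA'
      have hA'e : A' = T P h (-1) ((i - 1 : ℕ) : ℤ) := by
        rw [hA', cj_T]; congr 1 <;> omega
      have hAB : A ≤ B := T_mono le_rfl (by omega)
      have hA'B : A' ≤ B := by rw [hA'e]; exact T_mono (by omega) le_rfl
      have hne' : A ≠ ⊥ := fun e => hne (le_bot_iff.1 (e ▸ T_mono le_rfl (by omega)))
      have hAA : A' ≠ A := by
        intro e
        refine hmin i (by omega) ⟨?_, hne'⟩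
        have e2 : cj (h ^ (1 : ℤ)) A = A := by
          conv_lhs => rw [← e, hA', cj_cj, ← zpow_add]
          simp
        refine le_antisymm (T_mono le_rfl (by omega)) ?_
        rw [T_succ_eq]
        refine le_inf ((T_mono le_rfl (by omega)).trans_eq T_zero_zero) ?_
        have := cj_T (X := P) (h := h) 1 0 i
        rw [e2] at this
        exact this.le.trans_eq (by simp)
      have hB : A ⊔ A' = B := by
        refine le_antisymm (sup_le hAB hA'B) (relIndex_eq_one.1 ?_)
        have h1 := (d.step_shift (i - 1)).2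
        rw [← hA'e] at h1
        have h2 := relIndex_mul_relIndex A' (A ⊔ A') B le_sup_right (sup_le hAB hA'B)
        rw [← h2] at h1
        have h3 : A'.relIndex (A ⊔ A') ≠ 1 := fun e => hAA
          ((eq_of_le_of_card_ge (le_sup_left.trans (relIndex_eq_one.1 e)) (card_cj _ A).le).symm)
        rcases (Nat.dvd_prime d.prime).1 h1 with e | e
        · exact absurd (Nat.eq_one_of_mul_eq_one_right e) h3
        · rcases (Nat.dvd_prime d.prime).1 (Dvd.intro _ e) with e1 | e1
          · exact absurd e1 h3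
          · exact mul_left_cancel₀ d.prime.ne_zero (by rw [mul_one]; rw [e1] at e; exact e)
      rw [← hB]
      refine sup_le (ih (by omega)) ?_
      rintro _ ⟨a, ha, rfl⟩
      exact mul_mem (mul_mem (hhn _) (ih (by omega) ha)) (inv_mem (hhn _))
  have hPn : P ≤ normalizer (S : Set G) := by
    have := hj (n - 1) (by omega)
    simpa [T_zero_zero] using this
  exact hne (d.nobot S ((T_mono le_rfl (by omega)).trans_eq T_zero_zero) hPn hh)

lemma Data.exists_k (d : Data p P h) :
    ∃ k : ℕ, 1 ≤ k ∧ ∀ n : ℕ, n ≤ k → Nat.card ↥(T P h 0 n) = p ^ (k - n) := by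
  classical
  have key : ∀ n : ℕ, T P h 0 n = ⊥ ∨ Nat.card ↥P = p ^ n * Nat.card ↥(T P h 0 n) := by
    intro n
    induction n with
    | zero => right; simp [T_zero_zero]
    | succ n ih =>
      rcases ih with e | e
      · left; exact le_bot_iff.1 (e ▸ T_mono le_rfl (by omega))
      · rcases d.card_step n with e1 | e1
        · left; rw [e1, d.stable_eq_bot n e1]
        · right; rw [e, e1, pow_succ, mul_assoc]
  have hex : ∃ n : ℕ, T P h 0 n = ⊥ := by
    refine ⟨Nat.card ↥P, (key _).resolve_right fun e => ?_⟩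
    have h1 : p ^ Nat.card ↥P ≤ Nat.card ↥P :=
      Nat.le_of_dvd Nat.card_pos (Dvd.intro _ e.symm)
    exact absurd (Nat.lt_pow_self d.prime.one_lt) (not_lt.2 h1)
  set k := Nat.find hex with hk
  have hk0 : T P h 0 k = ⊥ := Nat.find_spec hex
  have hkpos : 1 ≤ k := by
    by_contra h0
    rw [show k = 0 by omega, Nat.cast_zero, T_zero_zero] at hk0
    have := d.idx
    rw [hk0, cj, Subgroup.map_bot, relIndex_self] at this
    exact d.prime.one_lt.ne this
  refine ⟨k, hkpos, fun n hn => ?_⟩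
  have hlt : ∀ j < k, Nat.card ↥P = p ^ j * Nat.card ↥(T P h 0 j) := fun j hj =>
    (key j).resolve_left (Nat.find_min hex hj)
  have hP : Nat.card ↥P = p ^ k := by
    have h1 := hlt (k - 1) (by omega)
    rcases d.card_step (k - 1) with e | e
    · exact absurd (d.stable_eq_bot _ e) (Nat.find_min hex (by omega : k - 1 < k))
    · rw [e, show k - 1 + 1 = k by omega, hk0, card_bot, mul_one, ← pow_succ,
        show k - 1 + 1 = k by omega] at h1
      exact h1
  rcases eq_or_lt_of_le hn with rfl | hlt'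
  · rw [hk0, card_bot, Nat.sub_self, pow_zero]
  · have h1 := hlt n hlt'
    rw [hP, show k = n + (k - n) by omega, pow_add] at h1
    exact (mul_left_cancel₀ (pow_ne_zero _ d.prime.ne_zero) h1).symm

end Cfsg.Agent.Lib.GlaubermanIndex
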