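import Cfsg.Agent.Lib.GlaubermanIndex.Chain
import Cfsg.Agent.Lib.SimsThree.Gen

/-!
Glauberman's bound for a subgroup meeting a conjugate in a normal subgroup of prime index.
-/

set_option autoImplicit false
set_option linter.unusedSectionVars false

namespace Cfsg.Agent.Lib.GlaubermanIndex

open Subgroup
open Cfsg.Agent.Lib.LocalChar (cj mem_cj cj_cj cj_mono card_cj mem_sup_iff_of_nz' conj_mem_cj)
open Cfsg.Agent.Lib.SimsThree (T mem_T cj_T T_mono T_inf card_T_shift T_zero_zero card_mul_relIndex' I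
  I_mono I_inf)

variable {G : Type*} [Group G] [Finite G]

/-- The generators. -/
structure Gens (p : ℕ) (P : Subgroup G) (h : G) (k : ℕ) (z : ℤ → G) : Prop where
  data : Data p P h
  kpos : 1 ≤ k
  card : ∀ n : ℕ, n ≤ k → Nat.card ↥(T P h 0 n) = p ^ (k - n)
  shift : ∀ i t : ℤ, h ^ t * z i * (h ^ t)⁻¹ = z (i + t)
  mem : ∀ i : ℤ, z i ∈ T P h (i - k) (i - 1)
  ne : ∀ i : ℤ, z i ≠ 1

variable {p : ℕ} {P : Subgroup G} {h : G} {k : ℕ} {z : ℤ → G}

lemma Data.exists_gens (d : Data p P h) : ∃ (k : ℕ) (z : ℤ → G), Gens p P h k z := by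
  obtain ⟨k, hk1, hk⟩ := d.exists_k
  obtain ⟨x, hx, hx1⟩ : ∃ x ∈ T P h 0 (k - 1 : ℕ), x ≠ 1 := by
    refine ((bot_or_exists_ne_one _).resolve_left fun e => ?_)
    have := hk (k - 1) (by omega)
    rw [e, card_bot, show k - (k - 1) = 1 by omega, pow_one] at this
    exact d.prime.one_lt.ne this
  refine ⟨k, fun i => h ^ (i - k) * x * (h ^ (i - k))⁻¹, d, hk1, hk, fun i t => ?_, fun i => ?_, fun i => ?_⟩
  · rw [show i + t - k = t + (i - k) by omega, zpow_add]
    simp only [mul_inv_rev, mul_assoc]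
  · have h1 := conj_mem_cj (g := h ^ (i - k : ℤ)) hx
    rw [cj_T] at h1
    rwa [zero_add, show ((k - 1 : ℕ) : ℤ) + (i - k) = i - 1 by omega] at h1
  · simpa using hx1

lemma Gens.card_T (g : Gens p P h k z) {lo hi : ℤ} (h1 : lo ≤ hi) (h2 : hi ≤ lo + k) :
    Nat.card ↥(T P h lo hi) = p ^ (k - (hi - lo).toNat) := by
  rw [← g.card (hi - lo).toNat (by omega), ← card_T_shift lo 0 ((hi - lo).toNat : ℤ)]
  congr! <;> omega

lemma Gens.card_I (g : Gens p P h k z) {a b : ℤ} (h1 : a ≤ b + 1) (h2 : b + 1 ≤ a + k) :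
    Nat.card ↥(I P h k a b) = p ^ (b + 1 - a).toNat := by
  rw [I, g.card_T (by omega) (by omega)]
  congr 1; omega

lemma Gens.I_eq_bot (g : Gens p P h k z) {a b : ℤ} (h1 : b < a) : I P h k a b = ⊥ := by
  refine le_bot_iff.1 ((T_mono (lo := b - k) (hi := a - 1) (lo' := a - 1 - k) (hi' := a - 1)
    (by omega) le_rfl).trans_eq ?_)
  exact card_eq_one.1 (by rw [g.card_T (by omega) (by omega)]; simp)

lemma Gens.mem_I (g : Gens p P h k z) {a b i : ℤ} (h1 : a ≤ i) (h2 : i ≤ b) :
    z i ∈ I P h k a b := T_mono (by omega) (by omega) (g.mem i)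

lemma Gens.zpowers_eq (g : Gens p P h k z) (i : ℤ) : zpowers (z i) = I P h k i i := by
  have hk := g.kpos
  have hc : Nat.card ↥(I P h k i i) = p := by
    rw [g.card_I (by omega) (by omega), show (i + 1 - i).toNat = 1 by omega, pow_one]
  refine eq_of_le_of_card_ge (zpowers_le.2 (g.mem_I le_rfl le_rfl)) ?_
  rw [hc, Nat.card_zpowers]
  have h1 : orderOf (z i) ∣ p := hc ▸ orderOf_dvd_natCard _ (g.mem_I le_rfl le_rfl)
  rcases (Nat.dvd_prime g.data.prime).1 h1 with e | e
  · exact absurd (orderOf_eq_one_iff.1 e) (g.ne i)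
  · exact e.ge

lemma Gens.orderOf_z (g : Gens p P h k z) (i : ℤ) : orderOf (z i) = p := by
  have hk := g.kpos
  rw [← Nat.card_zpowers, g.zpowers_eq, g.card_I (by omega) (by omega),
    show (i + 1 - i).toNat = 1 by omega, pow_one]

lemma Gens.normal_of_index (g : Gens p P h k z) {A B : Subgroup G} (hAB : A ≤ B) {n : ℕ}
    (hA : Nat.card ↥A = p ^ n) (hB : Nat.card ↥B = p ^ (n + 1)) :
    B ≤ normalizer (A : Set G) ∧ A.relIndex B = p := by
  have hi : A.relIndex B = p := by
    have := card_mul_relIndex' hAB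
    rw [hA, hB, pow_succ] at this
    exact mul_left_cancel₀ (pow_ne_zero _ g.data.prime.ne_zero) this
  refine ⟨(normal_subgroupOf_iff_le_normalizer hAB).1 (normal_of_index_eq_minFac_card ?_), hi⟩
  rw [hB, Nat.pow_minFac (by omega), g.data.prime.minFac_eq]
  exact hi

/-- Splitting off the lowest generator. -/
lemma Gens.split_low (g : Gens p P h k z) {a b : ℤ} (h1 : a ≤ b) (h2 : b + 1 ≤ a + k) :
    I P h k a b ≤ normalizer (I P h k (a + 1) b : Set G) ∧
      I P h k (a + 1) b ⊔ zpowers (z a) = I P h k a b := by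
  have hle : I P h k (a + 1) b ≤ I P h k a b := I_mono (by omega) le_rfl
  obtain ⟨hn, hi⟩ := g.normal_of_index hle (g.card_I (by omega) (by omega)) (by
    rw [g.card_I (by omega) (by omega)]; congr 1; omega)
  refine ⟨hn, ?_⟩
  have hsup : I P h k (a + 1) b ⊔ zpowers (z a) ≤ I P h k a b :=
    sup_le hle (zpowers_le.2 (g.mem_I le_rfl h1))
  refine le_antisymm hsup (relIndex_eq_one.1 ?_)
  have h3 := relIndex_mul_relIndex (I P h k (a + 1) b) _ (I P h k a b) le_sup_left hsup
  rw [hi] at h3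
  rcases (Nat.dvd_prime g.data.prime).1 (Dvd.intro _ h3) with e | e
  · exfalso
    have h4 : z a ∈ I P h k a a ⊓ I P h k (a + 1) b :=
      ⟨g.mem_I le_rfl le_rfl, relIndex_eq_one.1 e (mem_sup_right (mem_zpowers _))⟩
    have hk0 := g.kpos
    rw [I_inf (by omega) (by omega), g.I_eq_bot (by omega)] at h4
    exact g.ne a (mem_bot.1 h4)
  · rw [e] at h3
    exact mul_left_cancel₀ g.data.prime.ne_zero (by rw [mul_one]; exact h3)

/-- Splitting off the highest generator. -/
lemma Gens.split_high (g : Gens p P h k z) {a b : ℤ} (h1 : a ≤ b) (h2 : b + 1 ≤ a + k) :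
    I P h k a b ≤ normalizer (I P h k a (b - 1) : Set G) ∧
      I P h k a (b - 1) ⊔ zpowers (z b) = I P h k a b := by
  have hle : I P h k a (b - 1) ≤ I P h k a b := I_mono le_rfl (by omega)
  obtain ⟨hn, hi⟩ := g.normal_of_index hle (g.card_I (by omega) (by omega)) (by
    rw [g.card_I (by omega) (by omega)]; congr 1; omega)
  refine ⟨hn, ?_⟩
  have hsup : I P h k a (b - 1) ⊔ zpowers (z b) ≤ I P h k a b :=
    sup_le hle (zpowers_le.2 (g.mem_I h1 le_rfl))
  refine le_antisymm hsup (relIndex_eq_one.1 ?_)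
  have h3 := relIndex_mul_relIndex (I P h k a (b - 1)) _ (I P h k a b) le_sup_left hsup
  rw [hi] at h3
  rcases (Nat.dvd_prime g.data.prime).1 (Dvd.intro _ h3) with e | e
  · exfalso
    have h4 : z b ∈ I P h k b b ⊓ I P h k a (b - 1) :=
      ⟨g.mem_I le_rfl le_rfl, relIndex_eq_one.1 e (mem_sup_right (mem_zpowers _))⟩
    have hk0 := g.kpos
    rw [I_inf (by omega) (by omega), g.I_eq_bot (by omega)] at h4
    exact g.ne b (mem_bot.1 h4)
  · rw [e] at h3
    exact mul_left_cancel₀ g.data.prime.ne_zero (by rw [mul_one]; exact h3)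

lemma Gens.I_le (g : Gens p P h k z) {S : Subgroup G} {a b : ℤ} (hk : b + 1 ≤ a + k)
    (hS : ∀ l : ℤ, a ≤ l → l ≤ b → z l ∈ S) : I P h k a b ≤ S := by
  suffices ∀ (n : ℕ) (a' : ℤ), a ≤ a' → b + 1 ≤ a' + n → I P h k a' b ≤ S from
    this (b + 1 - a).toNat a le_rfl (by omega)
  intro n
  induction n with
  | zero => intro a' _ h2; rw [g.I_eq_bot (by omega)]; exact bot_le
  | succ n ih =>
    intro a' h1 h2
    rcases lt_or_ge b a' with hlt | hge
    · rw [g.I_eq_bot hlt]; exact bot_le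
    · rw [← (g.split_low hge (by omega)).2]
      exact sup_le (ih (a' + 1) (by omega) (by omega)) (zpowers_le.2 (hS a' h1 hge))

lemma Gens.commute_of_I (g : Gens p P h k z) {a b : ℤ} (hk : b + 1 ≤ a + k) {x : G}
    (hS : ∀ l : ℤ, a ≤ l → l ≤ b → Commute (z l) x) {w : G} (hw : w ∈ I P h k a b) : Commute w x :=
  mem_centralizer_singleton_iff.1 (g.I_le (S := centralizer {x}) hk
    (fun l h1 h2 => mem_centralizer_singleton_iff.2 (hS l h1 h2)) hw)

/-- `m` is the least distance of two noncommuting generators. -/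
structure Dist (z : ℤ → G) (m : ℕ) : Prop where
  pos : 1 ≤ m
  comm : ∀ i j : ℤ, j - i < m → i - j < m → Commute (z i) (z j)
  ncomm : ∀ i : ℤ, ¬ Commute (z i) (z (i + m))

variable {m : ℕ}

lemma Gens.commute_shift (g : Gens p P h k z) {i j : ℤ} (t : ℤ) (hc : Commute (z i) (z j)) :
    Commute (z (i + t)) (z (j + t)) := by
  rw [← g.shift i t, ← g.shift j t]
  exact hc.map (MulAut.conj (h ^ t)).toMonoidHom

/-- A power of a generator commuting with its partner is trivial. -/
lemma Gens.zpow_eq_one (g : Gens p P h k z) {i j : ℤ} (hnc : ¬ Commute (z i) (z j)) {e : G}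
    (he : e ∈ zpowers (z i)) (hc : Commute e (z j)) : e = 1 := by
  haveI := Fact.mk g.data.prime
  by_contra h1
  refine hnc ?_
  have h2 : (⟨z i, mem_zpowers _⟩ : ↥(zpowers (z i))) ∈ zpowers (⟨e, he⟩ : ↥(zpowers (z i))) :=
    mem_zpowers_of_prime_card (by rw [Nat.card_zpowers, g.orderOf_z]) fun e' =>
      h1 (congrArg Subtype.val e')
  obtain ⟨n, hn⟩ := h2
  have h3 : e ^ n = z i := congrArg Subtype.val hn
  rw [← h3]
  exact hc.zpow_left n

/-- An element central in an interval lies in a shorter one. -/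
lemma Gens.central_le (g : Gens p P h k z) (d : Dist z m) {a b : ℤ} (hk : b + 1 ≤ a + k)
    (hm : b + 1 ≤ a + 2 * m) {w : G} (hw : w ∈ I P h k a b)
    (hc : ∀ l : ℤ, a ≤ l → l ≤ b → Commute (z l) w) :
    w ∈ I P h k (max a (b - m + 1)) b ∧ w ∈ I P h k a (min b (a + m - 1)) := by
  have hm1 := d.pos
  constructor
  · suffices ∀ n : ℕ, a + n ≤ max a (b - m + 1) → w ∈ I P h k (a + n) b by
      have h1 := this (max a (b - m + 1) - a).toNat (by omega)
      rwa [show a + ((max a (b - m + 1) - a).toNat : ℤ) = max a (b - m + 1) by omega] at h1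
    intro n
    induction n with
    | zero => intro _; simpa using hw
    | succ n ih =>
      intro hn
      have h1 := ih (by omega)
      rw [show a + (n + 1 : ℕ) = a + n + 1 by omega]
      obtain ⟨hn1, hs⟩ := g.split_low (a := a + n) (b := b) (by omega) (by omega)
      rw [← hs] at h1
      obtain ⟨u, hu, e, he, rfl⟩ := (mem_sup_iff_of_nz'
        ((zpowers_le.2 (g.mem_I le_rfl (by omega))).trans hn1)).1 h1
      have h2 : Commute u (z (a + n + m)) :=
        g.commute_of_I (by omega) (fun l h5 h6 => d.comm l _ (by omega) (by omega)) hu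
      have h3 : Commute (u * e) (z (a + n + m)) := (hc _ (by omega) (by omega)).symm
      have h4 : Commute e (z (a + n + m)) := by
        have := h2.inv_left.mul_left h3
        rwa [inv_mul_cancel_left] at this
      rw [g.zpow_eq_one (d.ncomm (a + n)) he h4, mul_one]
      exact hu
  · suffices ∀ n : ℕ, min b (a + m - 1) ≤ b - n → w ∈ I P h k a (b - n) by
      have h1 := this (b - min b (a + m - 1)).toNat (by omega)
      rwa [show b - ((b - min b (a + m - 1)).toNat : ℤ) = min b (a + m - 1) by omega] at h1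
    intro n
    induction n with
    | zero => intro _; simpa using hw
    | succ n ih =>
      intro hn
      have h1 := ih (by omega)
      rw [show b - (n + 1 : ℕ) = b - n - 1 by omega]
      obtain ⟨hn1, hs⟩ := g.split_high (a := a) (b := b - n) (by omega) (by omega)
      rw [← hs] at h1
      obtain ⟨u, hu, e, he, rfl⟩ := (mem_sup_iff_of_nz'
        ((zpowers_le.2 (g.mem_I (by omega) le_rfl)).trans hn1)).1 h1
      have h2 : Commute u (z (b - n - m)) :=
        g.commute_of_I (by omega) (fun l h5 h6 => d.comm l _ (by omega) (by omega)) hu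
      have h3 : Commute (u * e) (z (b - n - m)) := (hc _ (by omega) (by omega)).symm
      have h4 : Commute e (z (b - n - m)) := by
        have := h2.inv_left.mul_left h3
        rwa [inv_mul_cancel_left] at this
      have h5 : ¬ Commute (z (b - n)) (z (b - n - m)) := fun hcc =>
        d.ncomm (b - n - m) (by
          rw [show b - n - m + m = b - n by omega]; exact hcc.symm)
      rw [g.zpow_eq_one h5 he h4, mul_one]
      exact hu

lemma I_X (P : Subgroup G) (h : G) (k : ℕ) : I P h k 1 k = P := by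
  rw [I, show ((k : ℤ) - k) = 0 by omega, show (1 : ℤ) - 1 = 0 by omega, T_zero_zero]

lemma I_shift (P : Subgroup G) (h : G) (k : ℕ) (i : ℤ) : cj (h ^ i) P = I P h k (1 + i) (k + i) := by
  have h0 := cj_T (X := P) (h := h) i 0 0
  rw [T_zero_zero] at h0
  rw [h0, I]
  congr 1 <;> omega

lemma Gens.le_two_mul (g : Gens p P h k z) (d : Dist z m) : k + 1 ≤ 2 * m := by
  by_contra hc
  have hm := d.pos
  haveI := Fact.mk g.data.prime
  set Y := I P h k 1 (2 * m : ℕ)
  have hY : Nat.card ↥Y = p ^ (2 * m) := by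
    rw [g.card_I (by omega) (by omega)]; congr 1; omega
  have hYp : IsPGroup p ↥Y := IsPGroup.of_card hY
  haveI : Nontrivial ↥Y := Finite.one_lt_card_iff_nontrivial.1 (by
    rw [hY]; exact Nat.one_lt_pow (by omega) g.data.prime.one_lt)
  haveI := hYp.center_nontrivial
  obtain ⟨⟨w, hwc⟩, hw1⟩ := exists_ne (1 : center ↥Y)
  have hw : (w : G) ∈ Y := w.2
  have h1 := g.central_le d (by omega) (by omega) hw fun l h1 h2 =>
    congrArg Subtype.val (mem_center_iff.1 hwc ⟨z l, g.mem_I h1 h2⟩)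
  have h3 : (w : G) ∈ I P h k (max 1 ((2 * m : ℕ) - m + 1)) (2 * m : ℕ) ⊓
      I P h k 1 (min (2 * m : ℕ) (1 + m - 1)) := h1
  rw [I_inf (by omega) (by omega), g.I_eq_bot (by omega), mem_bot] at h3
  exact hw1 (Subtype.ext (Subtype.ext h3))

/-- The commutator of `z 0` and `z m` lies in two intervals. -/
lemma Gens.conj_central (g : Gens p P h k z) (d : Dist z m) (hmk : m + 1 ≤ k) (hk2 : k + 1 ≤ 2 * m) :
    z 0 * z m * (z 0)⁻¹ * (z m)⁻¹ ∈ I P h k (k - m) m ∧
      z 0 * z m * (z 0)⁻¹ * (z m)⁻¹ ∈ I P h k 0 (2 * m - k : ℤ) := by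
  have hnP : ∀ a : ℤ, (a = 0 ∨ a = k) → z a ∈ normalizer (I P h k 1 (k - 1) : Set G) := by
    intro a ha
    rcases ha with rfl | rfl
    · have := (g.split_low (a := 0) (b := (k : ℤ) - 1) (by omega) (by omega)).1
      rw [zero_add] at this
      exact this (g.mem_I le_rfl (by omega))
    · exact (g.split_high (a := 1) (b := (k : ℤ)) (by omega) (by omega)).1 (g.mem_I (by omega) le_rfl)
  have hcen : ∀ a c : ℤ, (a = 0 ∨ a = k) → 1 ≤ c → c ≤ k - 1 → (∀ l : ℤ, 1 ≤ l → l ≤ (k : ℤ) - 1 →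
      Commute (z l) (z c)) → z a * z c * (z a)⁻¹ * (z c)⁻¹ ∈ I P h k (k - m) m := by
    intro a c ha hc1 hc2 hcc
    have hP : z a * z c * (z a)⁻¹ ∈ I P h k 1 (k - 1) :=
      (mem_normalizer_iff.1 (hnP a ha) (z c)).1 (g.mem_I hc1 hc2)
    have h1 := g.central_le d (a := 1) (b := (k : ℤ) - 1) (by omega) (by omega)
      (mul_mem hP (inv_mem (g.mem_I hc1 hc2))) fun l h1 h2 => by
        refine Commute.mul_right ?_ (hcc l h1 h2).inv_right
        have hl : (z a)⁻¹ * z l * z a ∈ I P h k 1 (k - 1) :=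
          (mem_normalizer_iff''.1 (hnP a ha) (z l)).1 (g.mem_I h1 h2)
        have h3 : Commute ((z a)⁻¹ * z l * z a) (z c) := g.commute_of_I (by omega) hcc hl
        have h4 := h3.map (MulAut.conj (z a)).toMonoidHom
        simp only [MulEquiv.coe_toMonoidHom, MulAut.conj_apply, mul_assoc, mul_inv_cancel_left,
          mul_inv_cancel, mul_one] at h4
        simpa only [mul_assoc] using h4
    have h5 : z a * z c * (z a)⁻¹ * (z c)⁻¹ ∈ I P h k (max 1 ((k : ℤ) - 1 - m + 1)) ((k : ℤ) - 1) ⊓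
        I P h k 1 (min ((k : ℤ) - 1) (1 + m - 1)) := h1
    rw [I_inf (by omega) (by omega)] at h5
    exact I_mono (by omega) (by omega) h5
  refine ⟨hcen 0 m (Or.inl rfl) (by omega) (by omega) fun l h1 h2 => d.comm _ _ (by omega) (by omega), ?_⟩
  have h1 := hcen k (k - m) (Or.inr rfl) (by omega) (by omega)
    fun l h1 h2 => d.comm _ _ (by omega) (by omega)
  have h3 := conj_mem_cj (g := h ^ (-((k : ℤ) - m))) (inv_mem h1)
  have e : h ^ (-((k : ℤ) - m)) * (z k * z (k - m) * (z k)⁻¹ * (z (k - m))⁻¹)⁻¹ *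
      (h ^ (-((k : ℤ) - m)))⁻¹ = z 0 * z m * (z 0)⁻¹ * (z m)⁻¹ := by
    have e0 := g.shift (k - m : ℤ) (-((k : ℤ) - m))
    have e1 := g.shift (k : ℤ) (-((k : ℤ) - m))
    rw [show (k - m : ℤ) + -((k : ℤ) - m) = 0 by omega] at e0
    rw [show (k : ℤ) + -((k : ℤ) - m) = m by omega] at e1
    rw [← e0, ← e1]
    simp only [mul_inv_rev, inv_inv, mul_assoc, inv_mul_cancel_left]
  rw [e, I, cj_T] at h3
  rw [I]
  convert h3 using 2 <;> omega

/-- Glauberman's bound. -/
theorem bound (d : Data p P h) (n : ℕ) (hn : 1 ≤ n)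
    (hK : ∀ x ∈ P, (∀ i : ℕ, i ≤ n → cj (h ^ (i : ℤ)) P ≤ centralizer {x}) → x = 1) :
    ∃ t : ℕ, Nat.card ↥P = p ^ t ∧ 1 ≤ t ∧ t ≤ 3 * n ∧ t ≠ 3 * n - 1 := by
  classical
  obtain ⟨k, z, g⟩ := d.exists_gens
  have hcard : Nat.card ↥P = p ^ k := by
    have := g.card 0 (by omega)
    rwa [Nat.cast_zero, T_zero_zero, Nat.sub_zero] at this
  refine ⟨k, hcard, g.kpos, ?_⟩
  have hex : ∃ m : ℕ, ¬ Commute (z 0) (z m) := by
    by_contra hc
    push Not at hc
    have hall : ∀ i j : ℤ, Commute (z i) (z j) := by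
      have h1 : ∀ i j : ℤ, i ≤ j → Commute (z i) (z j) := fun i j hij => by
        have h2 := g.commute_shift i (hc (j - i).toNat)
        rwa [zero_add, show ((j - i).toNat : ℤ) + i = j by omega] at h2
      intro i j
      rcases le_total i j with hij | hij
      exacts [h1 i j hij, (h1 j i hij).symm]
    refine g.ne 1 (hK _ (I_X P h k ▸ g.mem_I le_rfl (by have := g.kpos; omega)) fun i hi => ?_)
    rw [I_shift P h k]
    exact g.I_le (by omega) fun l h1 h2 => mem_centralizer_singleton_iff.2 (hall l 1)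
  set m := Nat.find hex with hmdef
  have hd : Dist z m := by
    have hcomm : ∀ j : ℕ, j < m → Commute (z 0) (z j) := fun j hj => not_not.1 (Nat.find_min hex hj)
    have hcomm' : ∀ i j : ℤ, i ≤ j → j - i < m → Commute (z i) (z j) := fun i j hij hlt => by
      have h2 := g.commute_shift i (hcomm (j - i).toNat (by omega))
      rwa [zero_add, show ((j - i).toNat : ℤ) + i = j by omega] at h2
    refine ⟨?_, fun i j h1 h2 => ?_, fun i hc => Nat.find_spec hex ?_⟩
    · by_contra h0
      have := Nat.find_spec hex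
      rw [← hmdef, show m = 0 by omega] at this
      exact this (Commute.refl _)
    · rcases le_total i j with hij | hij
      exacts [hcomm' i j hij h1, (hcomm' j i hij h2).symm]
    · have := g.commute_shift (-i) hc
      rwa [add_neg_cancel, show i + (m : ℤ) + -i = m by omega] at this
  have h1 := g.le_two_mul hd
  have hm := hd.pos
  have h2 : 2 * m ≤ k + n ∨ m ≤ n := by
    by_contra hc
    have hk := g.kpos
    -- a generator of `P` would be central
    set i : ℤ := max 1 ((k : ℤ) + n - m + 1) with hi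
    refine g.ne i (hK _ (I_X P h k ▸ g.mem_I (by omega) (by omega)) fun j hj => ?_)
    rw [I_shift P h k]
    exact g.I_le (by omega) fun l h1 h2 => mem_centralizer_singleton_iff.2
      (hd.comm l i (by omega) (by omega))
  rcases Nat.lt_or_ge m k with hmk | hmk
  · obtain ⟨ha, hb⟩ := g.conj_central hd hmk h1
    have h3 : 2 * k ≤ 3 * m := by
      by_contra hc
      have hy : z 0 * z m * (z 0)⁻¹ * (z m)⁻¹ ∈ I P h k (k - m) m ⊓ I P h k 0 (2 * m - k : ℤ) := ⟨ha, hb⟩
      rw [I_inf (by omega) (by omega), g.I_eq_bot (by omega), mem_bot] at hy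
      refine hd.ncomm 0 ?_
      rw [zero_add]
      show z 0 * z m = z m * z 0
      exact mul_inv_eq_iff_eq_mul.1 (mul_inv_eq_one.1 hy)
    omega
  · omega

end Cfsg.Agent.Lib.GlaubermanIndex
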